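import Cfsg.Agent.H307.QE.Engine
import Cfsg.Agent.H622.Levi.NonSwap
import Cfsg.Agent.H622.Levi.Ell
import Cfsg.Agent.H967.K4.Cusp

/-!
# S4547, `q` even: Lemma C (helper967, task QE2)

A Levi subgroup of type `A₂` whose nodes are fixed by the normalised automorphism `β` has an invariant cuspidal
character of odd degree.
-/

set_option autoImplicit false
set_option linter.unusedSectionVars false

open scoped ComplexConjugate
open Cfsg

namespace Cfsg.Agent.H967.K547.LemmaC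

open Cfsg.Agent.OddOrderCharacters.Clifford Cfsg.Agent.Characters Cfsg.Agent.H601.K4 Cfsg.Agent.H967.K4
open CoxeterSystem Cfsg.Agent.ChevalleyStructure.CoxeterGeom Cfsg.Agent.Tits.Roots Cfsg.Agent.Tits.Core
  Cfsg.Agent.Tits.Exchange Cfsg.Agent.Nodes.Reps Cfsg.Agent.Nodes.BNOf Cfsg.Agent.Nodes.StabComb
  Cfsg.Agent.Nodes.Bruhat Cfsg.Agent.Nodes.OppDec Cfsg.Agent.Nodes.LeviDec Cfsg.Agent.H53.HC
  Cfsg.Agent.H246.Dl Cfsg.Agent.KFacts.RgdAut Cfsg.Agent.KFacts.RgdDiag Cfsg.Agent.H307.QE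
open Cfsg.Agent.LieRecognition.BNCox (cA)
open Cfsg.Agent.TitsThree.KSideA (tv tv_of_ne tv_add tv_zero tv_neg tv_comm)
open Cfsg.Agent.H622.Levi (Co cr cr_neg cr_succ dirHom dirC dirHom_tv hom_ext_tv exists_ringEquiv tv_injective
  exists_chain exists_co exists_prime_dvd)
open Matrix
open scoped commutatorElement

/-! ### arithmetic -/

section arith

/-- the order of the Frobenius automorphism -/
theorem dvd_of_frob {F : Type*} [Field F] [Finite F] {f n : ℕ} (hf : Nat.card F = 2 ^ f)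
    (h : ∀ x : F, x ^ 2 ^ n = x) : f ∣ n := by
  obtain ⟨g, hg⟩ := IsCyclic.exists_ofOrder_eq_natCard (α := Fˣ)
  have h1 : g ^ (2 ^ n - 1) = 1 := by
    have h2 : g ^ 2 ^ n = g := Units.ext (by push_cast; exact h g)
    have h3 : 1 ≤ 2 ^ n := Nat.one_le_two_pow
    have h4 : g ^ (2 ^ n - 1) * g = 1 * g := by
      rw [← pow_succ, Nat.sub_add_cancel h3, h2, one_mul]
    exact mul_right_cancel h4
  have h5 := orderOf_dvd_of_pow_eq_one h1
  rw [hg, Nat.card_units, hf] at h5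
  have h6 : 2 ^ (Nat.gcd f n) - 1 = 2 ^ f - 1 := by
    rw [← Nat.pow_sub_one_gcd_pow_sub_one 2 f n]
    exact Nat.gcd_eq_left h5
  have h7 : 2 ^ (Nat.gcd f n) = 2 ^ f := by
    have h8 : 1 ≤ 2 ^ (Nat.gcd f n) := Nat.one_le_two_pow
    have h9 : 1 ≤ 2 ^ f := Nat.one_le_two_pow
    omega
  have h8 : Nat.gcd f n = f := Nat.pow_right_injective le_rfl h7
  rw [← h8]
  exact Nat.gcd_dvd_right _ _

/-- **The prime `d`.** -/
theorem exists_d {f j k : ℕ} (hf : f ≠ 0) (hj : f ∣ j * 2 ^ k) :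
    ∃ d : ℕ, d.Prime ∧ d ∣ (2 ^ f) ^ 2 + 2 ^ f + 1 ∧ ¬ d ∣ 2 ^ f - 1 ∧ ∃ i : ℕ, 2 ^ (j + f * i) ≡ 1 [MOD d] := by
  obtain ⟨b, m, hm, hfm⟩ := Nat.exists_eq_two_pow_mul_odd hf
  have hm0 : m ≠ 0 := by rintro rfl; exact absurd hm (by decide)
  have hmj : m ∣ j := by
    have h1 : m ∣ j * 2 ^ k := (Dvd.intro_left _ hfm.symm).trans hj
    exact (Nat.Coprime.pow_right k (Nat.coprime_two_right.2 hm)).dvd_of_dvd_mul_right h1
  obtain ⟨j', rfl⟩ := hmj
  have hx2 : 2 ≤ 2 ^ m := by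
    have := Nat.one_lt_pow hm0 one_lt_two
    omega
  obtain ⟨l, hl, h3, h2, hd⟩ := exists_prime_dvd hx2
  have : Fact l.Prime := ⟨hl⟩
  let x : ZMod l := ((2 ^ m : ℕ) : ZMod l)
  have hx1 : x ^ 2 + x + 1 = 0 := by
    have h4 : (((2 ^ m) ^ 2 + 2 ^ m + 1 : ℕ) : ZMod l) = 0 := (ZMod.natCast_eq_zero_iff _ _).2 hd
    push_cast at h4
    change ((2 ^ m : ℕ) : ZMod l) ^ 2 + ((2 ^ m : ℕ) : ZMod l) + 1 = 0
    push_cast
    exact h4
  have hx3 : x ^ 3 = 1 := by linear_combination (x - 1) * hx1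
  have hxne : x ≠ 1 := by
    intro h
    rw [h] at hx1
    have h5 : ((3 : ℕ) : ZMod l) = 0 := by push_cast; linear_combination hx1
    rw [ZMod.natCast_eq_zero_iff] at h5
    exact h3 ((Nat.prime_dvd_prime_iff_eq hl Nat.prime_three).1 h5)
  have hqx : ((2 ^ f : ℕ) : ZMod l) = x ^ 2 ^ b := by
    rw [hfm, mul_comm, pow_mul]
    push_cast
    change _ = ((2 ^ m : ℕ) : ZMod l) ^ 2 ^ b
    push_cast
    rfl
  have hb : ∀ b : ℕ, x ^ 2 ^ b = x ∨ x ^ 2 ^ b = x ^ 2 := by
    intro b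
    induction b with
    | zero => left; rw [pow_zero, pow_one]
    | succ b ih =>
      rw [pow_succ, pow_mul]
      rcases ih with h | h
      · right; rw [h]
      · left
        rw [h]
        linear_combination x * hx3
  have hq1 : ((2 ^ f : ℕ) : ZMod l) ^ 2 + ((2 ^ f : ℕ) : ZMod l) + 1 = 0 ∧ ((2 ^ f : ℕ) : ZMod l) ≠ 1 := by
    rw [hqx]
    rcases hb b with h | h
    · rw [h]; exact ⟨hx1, hxne⟩
    · rw [h]
      constructor
      · linear_combination hx1 + x * hx3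
      · intro h1
        apply hxne
        have : x = x ^ 3 := by rw [pow_succ, h1, one_mul]
        rw [this, hx3]
  refine ⟨l, hl, ?_, ?_, ?_⟩
  · rw [← ZMod.natCast_eq_zero_iff, Nat.cast_add, Nat.cast_add, Nat.cast_pow, Nat.cast_one]
    exact hq1.1
  · intro h
    rw [← ZMod.natCast_eq_zero_iff, Nat.cast_sub Nat.one_le_two_pow, Nat.cast_one, sub_eq_zero] at h
    exact hq1.2 h
  · -- `2 ^ j = x ^ j'` and `2 ^ f` generates the powers of `x`
    have hj : ((2 ^ (m * j') : ℕ) : ZMod l) = x ^ j' := by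
      rw [pow_mul]
      push_cast
      change _ = ((2 ^ m : ℕ) : ZMod l) ^ j'
      push_cast
      rfl
    obtain ⟨i, hi⟩ : ∃ i : ℕ, x ^ j' * (((2 ^ f : ℕ) : ZMod l)) ^ i = 1 := by
      rw [hqx]
      rcases hb b with h | h
      · refine ⟨2 * j', ?_⟩
        rw [h, ← pow_add, show j' + 2 * j' = 3 * j' by ring, pow_mul, hx3, one_pow]
      · refine ⟨j', ?_⟩
        rw [h, ← pow_mul, ← pow_add, show j' + 2 * j' = 3 * j' by ring, pow_mul, hx3, one_pow]
    refine ⟨i, ?_⟩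
    rw [← ZMod.natCast_eq_natCast_iff, pow_add, pow_mul 2 f i, Nat.cast_mul, hj, Nat.cast_pow, hi, Nat.cast_one]

end arith

/-! ### the character of `L` -/

section theta

variable {F L : Type} [Field F] [Finite F] [Field L] [Finite L] [Algebra F L]

open Cfsg.Agent.H139.Cusp (powTheta powTheta_algebraMap regular_powTheta_iff psi powTheta_apply Regular cuspMat)

theorem exists_theta_inv [CharP F 2] (hL : Module.finrank F L = 3) {f : ℕ} (hf : Nat.card F = 2 ^ f) {j k : ℕ}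
    (hj : f ∣ j * 2 ^ k) {τ : F ≃+* F} (hτ : ∀ x, τ x = x ^ 2 ^ j) :
    ∃ (θ : L →*₀ ℂ), Regular F 3 θ ∧ (∀ c : F, c ≠ 0 → θ (algebraMap F L c) = 1) ∧
      ∃ σ : L ≃+* L, (∀ c : F, σ (algebraMap F L c) = algebraMap F L (τ c)) ∧ ∀ x, θ (σ x) = θ x := by
  have hf0 : f ≠ 0 := by
    rintro rfl
    have : 1 < Nat.card F := Finite.one_lt_card
    rw [hf] at this
    norm_num at this
  obtain ⟨d, hd, hd1, hd2, i, hi⟩ := exists_d hf0 hj
  obtain ⟨θ₀, hθ₀⟩ := H139.Cusp.exists_theta L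
  obtain ⟨e, he⟩ := hd1
  set q := Nat.card F with hq
  rw [← hf] at he hd2
  have hq2 : 2 ≤ q := Finite.one_lt_card
  have he0 : e ≠ 0 := by rintro rfl; rw [mul_zero] at he; omega
  have ha : (q - 1) * e ≠ 0 := Nat.mul_ne_zero (by omega) he0
  have hq3 : q ^ 3 - 1 = ((q - 1) * e) * d := by
    have h1 : (q - 1) * (q ^ 2 + q + 1) = q ^ 3 - 1 := by
      obtain ⟨y, hy⟩ := Nat.exists_eq_add_of_le' (show 1 ≤ q by omega)
      rw [hy, Nat.add_sub_cancel]
      have : (y + 1) ^ 3 = y * ((y + 1) ^ 2 + (y + 1) + 1) + 1 := by ring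
      omega
    rw [← h1, he]; ring
  have hcardL : Nat.card Lˣ = q ^ 3 - 1 := by
    rw [Nat.card_units, Module.natCard_eq_pow_finrank (K := F), hL]
  have hpow : ∀ x : L, x ≠ 0 → (powTheta θ₀ ((q - 1) * e) ha x) ^ d = 1 := by
    intro x hx
    rw [powTheta_apply, ← pow_mul, ← hq3, ← hcardL, ← map_pow]
    have h1 : (Units.mk0 x hx) ^ Nat.card Lˣ = 1 := pow_card_eq_one'
    have h2 : x ^ Nat.card Lˣ = 1 := congrArg Units.val h1
    rw [h2, map_one]
  have : Fact (Nat.Prime 2) := ⟨Nat.prime_two⟩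
  have hτ' : ∀ x : F, τ x = x ^ 2 ^ (j + f * i) := by
    intro x
    have h1 : ∀ (i : ℕ) (y : F), y ^ 2 ^ (f * i) = y := by
      intro i y
      induction i with
      | zero => rw [mul_zero, pow_zero, pow_one]
      | succ i ih =>
        rw [mul_add, mul_one, pow_add, pow_mul, ih, ← hf]
        have : Fintype F := Fintype.ofFinite F
        rw [hq, Nat.card_eq_fintype_card]
        exact FiniteField.pow_card y
    rw [pow_add, pow_mul, h1, hτ]
  obtain ⟨σ, hσ1, hσ2⟩ := H53.HC.Gal.exists_ext (L := L) (p := 2) hτ'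
  refine ⟨powTheta θ₀ ((q - 1) * e) ha, ?_, fun c hc => powTheta_algebraMap ha (dvd_mul_right _ _) hc, σ, hσ2, ?_⟩
  · rw [regular_powTheta_iff hθ₀ ha hL]
    intro i hi0 hi3 hdvd
    rw [← hq, hq3] at hdvd
    have h1 : d ∣ q ^ i - 1 := Nat.dvd_of_mul_dvd_mul_left (Nat.pos_of_ne_zero ha) hdvd
    have h2 : d ∣ q ^ 2 + q + 1 := ⟨e, he⟩
    -- `d ∣ q - 1`
    apply hd2
    have : Fact d.Prime := ⟨hd⟩
    have hpos : 1 ≤ q ^ i := Nat.one_le_pow _ _ (by omega)
    rw [← ZMod.natCast_eq_zero_iff, Nat.cast_sub hpos, Nat.cast_pow, Nat.cast_one, sub_eq_zero] at h1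
    rw [← ZMod.natCast_eq_zero_iff] at h2
    push_cast at h2
    rw [← ZMod.natCast_eq_zero_iff, Nat.cast_sub (by omega), Nat.cast_one, sub_eq_zero]
    have h3 : i = 1 ∨ i = 2 := by omega
    rcases h3 with rfl | rfl
    · rwa [pow_one] at h1
    · have h4 : (q : ZMod d) = -2 := by linear_combination h2 - h1
      have h5 : (q : ZMod d) ^ 2 = 4 := by rw [h4]; ring
      rw [h1] at h5
      have h6 : (3 : ZMod d) = 0 := by linear_combination -h5
      linear_combination h4 - h6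
  · intro x
    rcases eq_or_ne x 0 with rfl | hx
    · rw [map_zero]
    · rw [hσ1, map_pow]
      obtain ⟨c, hc⟩ := (Nat.modEq_iff_dvd' Nat.one_le_two_pow).1 hi.symm
      have h1 : 2 ^ (j + f * i) = d * c + 1 := by
        have : 1 ≤ 2 ^ (j + f * i) := Nat.one_le_two_pow
        omega
      rw [h1, pow_succ, pow_mul, hpow x hx, one_pow, one_mul]

end theta

/-! ### the automorphism of `SL₃(F)` -/

section aut

variable {F : Type} [Field F] [Finite F] {Y : Type*} [Group Y] {φ : SpecialLinearGroup (Fin 3) F →* Y}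

/-- **Automorphisms which fix the root groups.** -/
theorem exists_dir_aut (hinj : ∀ a b : Fin 3, a ≠ b → Function.Injective fun t : F => φ (tv a b t)) {β : MulAut Y}
    (hg : ∀ a b : Fin 3, a ≠ b → ∀ s : F, ∃ t : F, β (φ (tv a b s)) = φ (tv a b t)) :
    ∃ (τ : F ≃+* F) (d : Fin 3 → F) (hd : ∀ a, d a ≠ 0), ∀ x, β (φ x) = φ (dirHom (dirC d hd) τ x) := by
  choose! f hf using hg
  obtain ⟨τ, d, hd, hτ⟩ := exists_ringEquiv (f := fun a b s => f a b s) (by
      intro a b hab s t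
      have h1 := hf a b hab (s + t)
      rw [tv_add, map_mul, map_mul, hf a b hab, hf a b hab, ← map_mul, ← tv_add] at h1
      exact (hinj _ _ hab h1).symm) (by
      intro a b c hab hbc hac s t
      have h1 := hf a c hac (s * t)
      rw [← tv_comm hab hbc hac, map_commutatorElement, map_commutatorElement] at h1
      rw [hf a b hab, hf b c hbc, ← map_commutatorElement, tv_comm hab hbc hac] at h1
      exact (hinj _ _ hac h1).symm) (by
      intro a b hab h0
      have h1 := hf a b hab 1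
      rw [h0, tv_zero, map_one, EmbeddingLike.map_eq_one_iff, ← map_one φ, ← tv_zero a b] at h1
      exact one_ne_zero (hinj a b hab h1))
  refine ⟨τ, d, hd, fun x => ?_⟩
  have h1 : β.toMonoidHom.comp φ = φ.comp (dirHom (dirC d hd) τ) := by
    refine hom_ext_tv fun a b hab s => ?_
    rw [MonoidHom.comp_apply, MonoidHom.comp_apply, dirHom_tv d hd τ hab]
    change β (φ (tv a b s)) = _
    rw [hf a b hab, ← hτ a b hab s]
  exact DFunLike.congr_fun h1 x

theorem iter_tv (τ : F ≃+* F) (d : Fin 3 → F) (hd : ∀ a, d a ≠ 0) (n : ℕ) {a b : Fin 3} (hab : a ≠ b) :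
    ∃ c : F, ∀ s : F, ((dirHom (dirC d hd) τ : SpecialLinearGroup (Fin 3) F → SpecialLinearGroup (Fin 3) F)^[n])
      (tv a b s) = tv a b (c * (τ^[n]) s) := by
  induction n with
  | zero => exact ⟨1, fun s => by rw [Function.iterate_zero, Function.iterate_zero, id, id, one_mul]⟩
  | succ n ih =>
    obtain ⟨c, hc⟩ := ih
    refine ⟨d a * τ c * (d b)⁻¹, fun s => ?_⟩
    rw [Function.iterate_succ_apply', hc, dirHom_tv d hd τ hab, map_mul, Function.iterate_succ_apply']
    congr 1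
    ring

/-- the automorphism of `SL₃(F)` has 2-power order -/
theorem exists_mulAut (hinj : ∀ a b : Fin 3, a ≠ b → Function.Injective fun t : F => φ (tv a b t)) {β : MulAut Y}
    {n : ℕ} (hn : 0 < n) (hβ : β ^ n = 1) {τ : F ≃+* F} {d : Fin 3 → F} {hd : ∀ a, d a ≠ 0}
    (h : ∀ x, β (φ x) = φ (dirHom (dirC d hd) τ x)) :
    (∀ s : F, (τ^[n]) s = s) ∧ ∃ α : MulAut (SpecialLinearGroup (Fin 3) F), α ^ n = 1 ∧
      ∀ x, α x = dirHom (dirC d hd) τ x := by
  set A : SpecialLinearGroup (Fin 3) F →* SpecialLinearGroup (Fin 3) F := dirHom (dirC d hd) τ with hA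
  have h1 : ∀ (m : ℕ) (x : SpecialLinearGroup (Fin 3) F), (β ^ m) (φ x) = φ ((A^[m]) x) := by
    intro m
    induction m with
    | zero => intro x; rfl
    | succ m ih => intro x; rw [pow_succ', MulAut.mul_apply, ih, h, Function.iterate_succ_apply']
  have h2 : ∀ (a b : Fin 3), a ≠ b → ∀ s : F, (A^[n]) (tv a b s) = tv a b s ∧ (τ^[n]) s = s := by
    intro a b hab
    obtain ⟨c, hc⟩ := iter_tv τ d hd n hab
    have h3 : ∀ s : F, c * (τ^[n]) s = s := by
      intro s
      have h4 := h1 n (tv a b s)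
      rw [hβ, MulAut.one_apply, hA, hc] at h4
      exact (hinj a b hab h4).symm
    have h5 : (τ^[n]) (1 : F) = 1 := by
      clear hn h3 hc hβ
      induction n with
      | zero => rfl
      | succ n ih => rw [Function.iterate_succ_apply', ih, map_one]
    have h6 : c = 1 := by have := h3 1; rwa [h5, mul_one] at this
    intro s
    have h7 := h3 s
    rw [h6, one_mul] at h7
    exact ⟨by rw [hA, hc, h6, one_mul, h7], h7⟩
  have h4 : ∀ x, (A^[n]) x = x := by
    intro x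
    refine Cfsg.Agent.LieClassical.SLGen.transvection_induction (fun x => (A^[n]) x = x) ?_ ?_ x
    · intro a b hab s
      have := (h2 a b hab s).1
      rwa [tv_of_ne hab] at this
    · intro x y hx hy
      have e : (A^[n]) (x * y) = (A^[n]) x * (A^[n]) y := iterate_map_mul A n x y
      rw [e, hx, hy]
  have hbij : Function.Bijective A := by
    obtain ⟨m, rfl⟩ := Nat.exists_eq_add_of_le' hn
    constructor
    · intro x y hxy
      rw [← h4 x, ← h4 y, Function.iterate_succ_apply, Function.iterate_succ_apply, hxy]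
    · intro x
      refine ⟨(A^[m]) x, ?_⟩
      rw [← Function.iterate_succ_apply' (f := A)]
      exact h4 x
  refine ⟨fun s => (h2 0 1 (by decide) s).2, MulEquiv.ofBijective A hbij, ?_, fun x => rfl⟩
  ext x : 1
  have h5 : ∀ m : ℕ, ∀ x, ((MulEquiv.ofBijective A hbij : MulAut (SpecialLinearGroup (Fin 3) F)) ^ m) x = (A^[m]) x := by
    intro m
    induction m with
    | zero => intro x; rfl
    | succ m ih => intro x; rw [pow_succ', MulAut.mul_apply, ih, Function.iterate_succ_apply']; rfl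
  rw [h5, h4]
  rfl

theorem iter_frob {τ : F ≃+* F} {j : ℕ} (hτ : ∀ x, τ x = x ^ 2 ^ j) (n : ℕ) (x : F) : (τ^[n]) x = x ^ 2 ^ (j * n) := by
  induction n with
  | zero => rw [mul_zero, pow_zero, pow_one]; rfl
  | succ n ih => rw [Function.iterate_succ_apply', ih, hτ, ← pow_mul, ← pow_add, mul_add, mul_one]

end aut

section main

variable {I W Y : Type*} [Fintype I] [DecidableEq I] [Group W] [Group Y] {M : CoxeterMatrix I}
  {cs : CoxeterSystem M W} {A : I → I → ℤ} {h : IsCartan M A} {T : Subgroup Y} {n : I → Y}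
  {X : (I → ℤ) → Subgroup Y} {F : Type} [Field F] [Finite F] {φ : SpecialLinearGroup (Fin 3) F →* Y} {k : Fin 2 ↪ I}

/-- **Lemma C for a Levi subgroup with coordinates.** -/
theorem exists_ocs [Finite W] [Finite Y] [CharP F 2] (C : Co X k F φ) (hk : ∀ i j, M (k i) (k j) = cA 2 i j)
    {β : MulAut Y} {m : ℕ} (hβ : β ^ 2 ^ m = 1)
    (hroot : ∀ a b : Fin 3, a ≠ b → ∀ s : F, ∃ t : F, β (φ (tv a b s)) = φ (tv a b t))
    (hM : Fix β (MJ cs h X (Set.range k))) :
    ∃ θ : ↥(MJ cs h X (Set.range k)) → ℂ, Cusp cs h X (Set.range k) θ ∧ OS (rAut β hM) θ := by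
  classical
  have : Fintype F := Fintype.ofFinite F
  have : Fact (Nat.Prime 2) := ⟨Nat.prime_two⟩
  have hinj : ∀ a b : Fin 3, a ≠ b → Function.Injective fun t : F => φ (tv a b t) :=
    fun a b hab => tv_injective C.ker hab
  obtain ⟨τ, d, hd, hφ⟩ := exists_dir_aut hinj hroot
  obtain ⟨hτ1, α, hα, hαd⟩ := exists_mulAut hinj (by positivity) hβ hφ
  obtain ⟨j, hj⟩ := H53.HC.Gal.exists_frob_pow (p := 2) τ
  obtain ⟨f, hf⟩ : ∃ f : ℕ, Nat.card F = 2 ^ f := by
    obtain ⟨f, -, hf⟩ := FiniteField.card F 2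
    exact ⟨f, by rw [Nat.card_eq_fintype_card, hf]⟩
  have hdvd : f ∣ j * 2 ^ m := dvd_of_frob hf fun x => by rw [← iter_frob hj]; exact hτ1 x
  obtain ⟨L, _, _, _, hL⟩ : ∃ (L : Type) (_ : Field L) (_ : Algebra F L) (_ : Finite L),
      Module.finrank F L = 3 :=
    ⟨FiniteField.Extension F 2 3, inferInstance, inferInstance, inferInstance, FiniteField.finrank_extension F 2 3⟩
  obtain ⟨θ, hreg, h1, σ, hσ, hθσ⟩ := exists_theta_inv (L := L) hL hf hdvd hj
  have hirr := H139.Cusp.psi_isIrr θ hL hreg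
  let g : SpecialLinearGroup (Fin 3) F →* GL (Fin 3) F := SpecialLinearGroup.toGL
  have hΨ : IsCharacter _ (H139.Cusp.psi (n := 3) (F := F) L θ ∘ g) :=
    Core.isCharacter_comp g (Core.isIrr_isCharacter hirr)
  have hone : (H139.Cusp.psi (n := 3) (F := F) L θ ∘ g) 1 = (H139.Cusp.degP (Nat.card F) 3 : ℂ) := by
    rw [Function.comp_apply, map_one, H139.Cusp.psi_one L θ (by omega)]
  have : Fintype (SpecialLinearGroup (Fin 3) F) := Fintype.ofFinite _
  have heven : Even (Nat.card F) := by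
    rw [Nat.card_eq_fintype_card, Nat.even_iff]
    exact FiniteField.even_card_iff_char_two.1 (ringChar.eq F 2)
  have hfix : ∀ x, (H139.Cusp.psi (n := 3) (F := F) L θ ∘ g) (α x) = (H139.Cusp.psi (n := 3) (F := F) L θ ∘ g) x := by
    intro x
    rw [hαd, Function.comp_apply, Function.comp_apply]
    have hdet : ((x : Matrix (Fin 3) (Fin 3) F).map τ).det ≠ 0 := by
      have := RingHom.map_det (τ : F →+* F) (x : Matrix (Fin 3) (Fin 3) F)
      rw [x.2, map_one] at this
      exact ne_of_eq_of_ne this.symm one_ne_zero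
    let y : GL (Fin 3) F := GeneralLinearGroup.mkOfDetNeZero ((x : Matrix (Fin 3) (Fin 3) F).map τ) hdet
    have e1 : H139.Cusp.psi (n := 3) (F := F) L θ (g (dirHom (dirC d hd) τ x)) =
        H139.Cusp.cuspMat L θ ((dirC d hd * y * (dirC d hd)⁻¹ : GL (Fin 3) F) : Matrix (Fin 3) (Fin 3) F) := rfl
    rw [e1, H53.HC.Gal.cuspMat_conj]
    exact H53.HC.Gal.cuspMat_semilinear hL hσ hθσ (x : Matrix (Fin 3) (Fin 3) F)
  obtain ⟨η, hη, h5⟩ := exists_os_const hα hΨ hone (odd_degP Nat.card_pos heven 3) ((psi_sf L θ).comp g) hfix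
  have h6 := isCharacter_sub_irr hΨ hη.odd.1 h5
  have hscal : ∀ c : Fˣ, H139.Cusp.psi (n := 3) (F := F) L θ (GeneralLinearGroup.scalar (Fin 3) c) =
      H139.Cusp.psi (n := 3) (F := F) L θ 1 := fun c => by
    have := H139.Cusp.psi_scalar θ hL c 1
    rw [mul_one] at this
    rw [this, h1 c c.ne_zero, one_mul]
  obtain ⟨θ', h9, h10⟩ := H622.Levi.exists_descend (cs := cs) (h := h) C hk (by omega) hη.odd.1 (by
    intro z hz'
    refine H622.Levi.apply_eq_of_add (Core.isIrr_isCharacter hη.odd.1) h6 ?_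
    rw [Pi.sub_apply, Pi.sub_apply, add_sub_cancel, add_sub_cancel, Function.comp_apply, Function.comp_apply, map_one]
    rw [← SpecialLinearGroup.toGL_mem_center_iff, GeneralLinearGroup.center_eq_range_scalar] at hz'
    obtain ⟨c, hc'⟩ := hz'
    change H139.Cusp.psi L θ (SpecialLinearGroup.toGL z) = _
    rw [← hc', hscal]) (by
    intro i _
    refine H622.Levi.sum_eq_zero_of_add (Core.isIrr_isCharacter hη.odd.1) h6 (H622.Levi.UU F i) ?_
    rw [← H622.Levi.sum_UU (Core.isIrr_isClassFunction hirr) (H139.Cusp.psi_isCusp L θ) i]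
    refine Finset.sum_congr rfl fun g _ => ?_
    rw [Pi.sub_apply, add_sub_cancel, Function.comp_apply])
  have hran : φ.range = MJ cs h X (Set.range k) := C.range hk (by omega)
  let G : SpecialLinearGroup (Fin 3) F →* ↥(MJ cs h X (Set.range k)) :=
    φ.codRestrict _ fun g => hran ▸ ⟨g, rfl⟩
  have hG : Function.Surjective G := by
    rintro ⟨y, hy⟩
    rw [← hran] at hy
    obtain ⟨x, rfl⟩ := hy
    exact ⟨x, rfl⟩
  refine ⟨θ', h9, ⟨h9.irr, ?_⟩, ?_, ?_⟩
  · have e : charDegree θ' = charDegree η := by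
      unfold charDegree
      rw [h10 1 1 (map_one φ).symm]
    rw [e]
    exact hη.odd.2
  · obtain ⟨c, hc⟩ := H967.K4.exists_cube (SpecialLinearGroup (Fin 3) F)
    refine SF.of_pow (Cube.of_surjective G hG hc) fun y => ?_
    obtain ⟨x, rfl⟩ := hG y
    rw [← map_pow, h10 (x ^ c) (G (x ^ c)) rfl, h10 x (G x) rfl]
    exact hη.sf.apply_pow hc x
  · intro y
    obtain ⟨x, rfl⟩ := hG y
    have e : rAut β hM (G x) = G (α x) := by
      apply Subtype.ext
      rw [rAut_coe]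
      exact (hφ x).trans (congrArg φ (hαd x).symm)
    rw [e, h10 (α x) (G (α x)) rfl, h10 x (G x) rfl, hη.fix]

variable {p : ℕ}

/-- the root groups of the chain are fixed -/
theorem root_tv (C : Co X k F φ) {β : MulAut Y} (h1 : ∀ x, β x ∈ X (sr (k 0)) ↔ x ∈ X (sr (k 0)))
    (h2 : ∀ x, β x ∈ X (sr (k 1)) ↔ x ∈ X (sr (k 1))) (h3 : ∀ x, β x ∈ X (-sr (k 0)) ↔ x ∈ X (-sr (k 0)))
    (h4 : ∀ x, β x ∈ X (-sr (k 1)) ↔ x ∈ X (-sr (k 1))) (a b : Fin 3) (hab : a ≠ b)
    (s : F) : ∃ t : F, β (φ (tv a b s)) = φ (tv a b t) := by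
  have e01 : cr k 0 1 = sr (k 0) := cr_succ k 0
  have e12 : cr k 1 2 = sr (k 1) := cr_succ k 1
  have e10 : cr k 1 0 = -sr (k 0) := by rw [← e01, cr_neg]
  have e21 : cr k 2 1 = -sr (k 1) := by rw [← e12, cr_neg]
  have key : ∀ (a b : Fin 3) (hab : a ≠ b), (∀ x, β x ∈ X (cr k a b) ↔ x ∈ X (cr k a b)) →
      ∀ s : F, ∃ t : F, β (φ (tv a b s)) = φ (tv a b t) := by
    intro a b hab hX s
    have h5 : φ (tv a b s) ∈ X (cr k a b) := by
      have h0 : φ (tv a b s) ∈ (X (cr k a b) : Set Y) := by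
        rw [C.root a b hab, tv_of_ne hab]
        exact ⟨s, rfl⟩
      exact h0
    have h6 : β (φ (tv a b s)) ∈ (X (cr k a b) : Set Y) := (hX _).2 h5
    rw [C.root a b hab] at h6
    obtain ⟨t, ht⟩ := h6
    exact ⟨t, ht.symm.trans (by rw [tv_of_ne hab])⟩
  have comp : ∀ {a b c : Fin 3}, a ≠ b → b ≠ c → a ≠ c → (∀ s : F, ∃ t : F, β (φ (tv a b s)) = φ (tv a b t)) →
      (∀ s : F, ∃ t : F, β (φ (tv b c s)) = φ (tv b c t)) → ∀ s : F, ∃ t : F, β (φ (tv a c s)) = φ (tv a c t) := by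
    intro a b c hab hbc hac g1 g2 s
    obtain ⟨t, ht⟩ := g1 s
    obtain ⟨u, hu⟩ := g2 1
    refine ⟨t * u, ?_⟩
    have e1 : tv a c s = ⁅tv a b s, tv b c (1 : F)⁆ := by rw [tv_comm hab hbc hac, mul_one]
    rw [e1, map_commutatorElement, map_commutatorElement, ht, hu, ← map_commutatorElement, tv_comm hab hbc hac]
  have f01 := key 0 1 (by decide) (by rw [e01]; exact h1)
  have f12 := key 1 2 (by decide) (by rw [e12]; exact h2)
  have f10 := key 1 0 (by decide) (by rw [e10]; exact h3)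
  have f21 := key 2 1 (by decide) (by rw [e21]; exact h4)
  fin_cases a <;> fin_cases b
  · exact absurd rfl hab
  · exact f01 s
  · exact comp (by decide) (by decide) (by decide) f01 f12 s
  · exact f10 s
  · exact absurd rfl hab
  · exact f12 s
  · exact comp (by decide) (by decide) (by decide) f21 f10 s
  · exact f21 s
  · exact absurd rfl hab

/-- **Lemma C.** -/
theorem ocs_pair [Finite W] [Finite Y] (R : RGD cs h 2 T n X) (hG : GG cs h T X = ⊤) {β : MulAut Y}
    {σ : Equiv.Perm I} (hN : Nrm R β σ) {i j : I} (hij : M i j = 3) (hi : σ i = i) (hj : σ j = j)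
    (hK : σ '' {i, j} = {i, j}) : OCS R hG hN hK := by
  obtain ⟨k, rfl, rfl, hr, hk⟩ := exists_chain hij
  obtain ⟨F, _, _, φ, C⟩ := exists_co R le_rfl k hk
  obtain ⟨a, ha⟩ := card_X_sr R (k 0)
  have := charP_two_of_card ((C.card 0).symm.trans ha)
  obtain ⟨m, hm⟩ := hN.pow
  have hroot := root_tv C (β := β)
    (fun x => by have := hN.diag.pos (k 0) x; rwa [hi] at this)
    (fun x => by have := hN.diag.pos (k 1) x; rwa [hj] at this)
    (fun x => by have := hN.diag.neg (k 0) x; rwa [hi] at this)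
    (fun x => by have := hN.diag.neg (k 1) x; rwa [hj] at this)
  have key : ∀ (K : Set I) (hK : σ '' K = K), Set.range k = K → OCS R hG hN hK := by
    rintro K hK rfl
    exact exists_ocs C hk hm hroot _
  exact key _ hK hr

end main

end Cfsg.Agent.H967.K547.LemmaC
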